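import Cfsg.Agent.Lib.H7.TateCor
import Cfsg.Agent.Lib.H9.PG2

set_option autoImplicit false

open scoped commutatorElement

namespace Cfsg.Agent.H7

open Cfsg.FusionSystem

variable {Ω : Type*} [Group Ω] {p : ℕ}

theorem le_normalizer_sup_zpowers {P K : Subgroup Ω} [Finite P] (hKP : K ≤ P)
    (hK : P ≤ Subgroup.normalizer (K : Set Ω)) {z : Ω} (hz : z ∈ P) (h : ∀ x ∈ P, ⁅x, z⁆ ∈ K) :
    P ≤ Subgroup.normalizer ((K ⊔ Subgroup.zpowers z : Subgroup Ω) : Set Ω) := fun a ha => by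
  have := finite_of_le (sup_le hKP (Subgroup.zpowers_le.2 hz))
  refine mem_normalizer_of_finite fun x hx => ?_
  refine (isHomOn_conj _ a).mapsTo_sup (fun y hy => Subgroup.mem_sup_left
    (conj_mem_of_mem_normalizer (hK ha) hy)) ?_ x hx
  rintro _ ⟨k, rfl⟩
  rw [← conj_zpow]
  refine Subgroup.zpow_mem _ ?_ k
  rw [show a * z * a⁻¹ = ⁅a, z⁆ * z by group]
  exact Subgroup.mul_mem_sup (h a ha) (Subgroup.mem_zpowers z)

/-- Normal subgroups of every intermediate order exist in a finite `p`-group. -/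
theorem exists_normal_between [hp : Fact p.Prime] {P K L : Subgroup Ω} [Finite P]
    (hP : IsPGroup p P) (hKL : K ≤ L) (hLP : L ≤ P) (hK : P ≤ Subgroup.normalizer (K : Set Ω))
    (hL : P ≤ Subgroup.normalizer (L : Set Ω)) {k : ℕ} (h1 : Nat.card K ≤ p ^ k)
    (h2 : p ^ k ≤ Nat.card L) :
    ∃ Q, K ≤ Q ∧ Q ≤ L ∧ P ≤ Subgroup.normalizer (Q : Set Ω) ∧ Nat.card Q = p ^ k := by
  have := finite_of_le (hKL.trans hLP)
  have := finite_of_le hLP
  obtain ⟨j, hj⟩ := IsPGroup.iff_card.1 (hP.to_le (hKL.trans hLP))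
  induction k with
  | zero => exact ⟨K, le_rfl, hKL, hK, le_antisymm h1 Nat.card_pos⟩
  | succ k ih =>
    by_cases h : Nat.card K ≤ p ^ k
    · have hlt : p ^ k < Nat.card L := (Nat.pow_lt_pow_right hp.out.one_lt k.lt_succ_self).trans_le h2
      obtain ⟨Q, q1, q2, q3, q4⟩ := ih h hlt.le
      have hQL : Q < L := lt_of_le_of_ne q2 fun e => by rw [← e, q4] at hlt; exact lt_irrefl _ hlt
      obtain ⟨z, hz, hzQ, hzp, hz'⟩ := H9.exists_mem_commutator_mem_of_lt hP hLP q3 hL hQL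
      exact ⟨Q ⊔ Subgroup.zpowers z, q1.trans le_sup_left, sup_le q2 (Subgroup.zpowers_le.2 hz),
        le_normalizer_sup_zpowers (q2.trans hLP) q3 (hLP hz) hz',
        by rw [H9.card_sup_zpowers (q3 (hLP hz)) hzQ hzp, q4, pow_succ]⟩
    · refine ⟨K, le_rfl, hKL, hK, ?_⟩
      rw [hj] at h h1 ⊢
      have a1 := (Nat.pow_le_pow_iff_right hp.out.one_lt).1 h1
      have a2 := (Nat.pow_lt_pow_iff_right hp.out.one_lt).1 (not_le.1 h)
      rw [show j = k + 1 by omega]

end Cfsg.Agent.H7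

namespace Cfsg
namespace FusionSystem

open Cfsg.Agent Cfsg.Agent.H7 Cfsg.Agent.H8

variable {Ω : Type*} [Group Ω] {S T : Subgroup Ω} {p : ℕ}
variable {F : FusionSystem S} {P Q R : Subgroup Ω} {f g : Ω → Ω}

theorem IsHomOn.img_Phi_le {Ω' : Type*} [Group Ω'] {t : Ω → Ω'} (ht : IsHomOn P t) :
    ∀ x ∈ H9.Phi p P, t x ∈ H9.Phi p (img P t) := by
  have : H9.Phi p P ≤ ht.preim (H9.Phi p (img P t)) := H9.Phi_le_iff.2
    ⟨fun x hx => ⟨P.pow_mem hx p, by
      rw [ht.map_pow hx]; exact H9.pow_mem_Phi (mem_img_of_mem t hx)⟩,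
    fun x hx y hy => ⟨Subgroup.commutator_le_self P (Subgroup.commutator_mem_commutator hx hy), by
      rw [ht.map_commutatorElement hx hy]
      exact H9.commutator_mem_Phi (mem_img_of_mem t hx) (mem_img_of_mem t hy)⟩⟩
  exact fun x hx => (this hx).2

variable [Fact p.Prime] [Finite S]

/-- Tate's theorem relative to a strongly closed subgroup. -/
theorem IsSaturated.hyp_le_of_le_Phi_sup (hF : F.IsSaturated p) (hS : IsPGroup p S)
    (hR : F.StronglyClosed R) (h : F.hyperfocalSubgroup p ≤ H9.Phi p S ⊔ R) :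
    F.hyperfocalSubgroup p ≤ R := by
  have := hR.normal_subgroupOf
  obtain ⟨E, hE⟩ := exists_factorSystem_quotient F hR
  refine (hF.hyp_le_of_factor hS hR hE).1 ((factor_isSaturated hF hS hR hE).eq_inner_of_hyp_le_Phi
    (factor_isPGroup hS hE) ?_)
  rw [factor_hyp hF hS hR hE, img_le_iff]
  intro x hx
  refine ((isHomOn_homFun _).mono (sup_le (H9.Phi_le S) hR.le)).mapsTo_sup (fun y hy => ?_)
    (fun y hy => ?_) x (h hx)
  · have := (isHomOn_homFun (QuotientGroup.mk' (R.subgroupOf S))).img_Phi_le y hy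
    rwa [← range_eq_img_homFun, factor_range hE] at this
  · rw [(factor_ker hE (hR.le hy)).2 hy]; exact Subgroup.one_mem _

theorem IsSaturated.hyp_le_of_normalizer_inner (hF : F.IsSaturated p) (hS : IsPGroup p S)
    (hR : F.StronglyClosed R) {N : FusionSystem T} (hN : F.IsKNormSys R ⊤ N)
    (h : N = innerFusionSystem T) : F.hyperfocalSubgroup p ≤ R := by
  refine hyp_le_of_above hF hS hR hR.le_normalizer le_rfl fun P hP _ _ hRP α hα ho => ?_
  have hPT : P ≤ T := hN.top_eq ▸ hR.normalizerIn_eq.symm ▸ hP.le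
  have hm := isMor_of_mem_autGroup hP.le hα
  have h1 : α ∈ N.autGroup P := (hN.top_isMor_of_isIso hm hRP le_rfl hPT
    (hR.isIso_self (hm.mono hRP))).mem_autGroup fun x => (equivFun_coe α x).symm
  rw [h] at h1
  have := hN.finite
  rw [eq_one_of_isPGroup_of_coprime (isPGroup_autGroup_inner (hN.isPGroup hS) hPT) h1 ho]
  exact Subgroup.one_mem _

/-- If `Aut_F(S)` is a `p`-group, `hyp(F) ≤ T` and `T/R` is central in `S/R`, then `hyp(F) ≤ R`. -/
theorem IsSaturated.hyp_le_of_central (hF : F.IsSaturated p) (hS : IsPGroup p S)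
    (hA : IsPGroup p (F.autGroup S)) (hR : F.StronglyClosed R) (hT : F.StronglyClosed T)
    (hi : R.relIndex T ∣ p) (hRT : R ≤ T) (h : F.hyperfocalSubgroup p ≤ T) :
    F.hyperfocalSubgroup p ≤ R := by
  have hc : ∀ s ∈ S, ∀ x ∈ T, x⁻¹ * (s * x * s⁻¹) ∈ R := fun s hs x hx => by
    have := R.inv_mem (H9.commutator_mem_of_relIndex_prime hS hT.le hR.le_normalizer
      hT.le_normalizer hRT hi hs (T.inv_mem hx))
    rw [commutatorElement_inv, commutatorElement_def, inv_inv] at this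
    simpa only [mul_assoc] using this
  refine hyp_le_of_above hF hS hR hR.le_normalizer le_rfl fun P hP _ _ hRP α hα ho => ?_
  refine mem_modAut_of_two_step (hS.to_le hP.le) ho (N := T)
    (fun x hx => h (mem_hyperfocalSubgroup hP.le hα ho hx)) (fun x hx hxT => ?_)
    fun x hx _ => hR.le_normalizer (hP.le hx)
  have hm := isMor_of_mem_autGroup hP.le hα
  by_cases hxR : x ∈ R
  · exact R.mul_mem (R.inv_mem hxR) (hR.map_mem hm hx hxR)
  have hTP : T ≤ P := by
    have := finite_of_le hT.le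
    rcases (Nat.dvd_prime Fact.out).1 hi with h1 | h1
    · exact absurd (Subgroup.relIndex_eq_one.1 h1 hxT) hxR
    · rw [← H9.sup_zpowers_eq_of_relIndex_prime Fact.out h1 hRT hxT hxR]
      exact sup_le hRP (Subgroup.zpowers_le.2 hx)
  obtain ⟨β, hβ, e⟩ := (hT.isIso_self (hm.mono hTP)).exists_aut
  obtain ⟨κ, hκ, g, hg, -, eg⟩ := hF.frattini_ext hS hT.weaklyClosed.isFullyNormalized
    (K := modAut T R) (autGroup_le_normalizer_modAut hR hT.le) (R := S) hT.normalizerIn_eq.ge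
    (fun a ha y hy => by rw [equivFun_conjAut _ hy]; exact hc a ha y hy) hβ
  obtain ⟨γ, hγ, eγ⟩ := (hg.mono le_sup_right).isIso_top.exists_aut
  rw [← (hF.sylowIn_top hS).eq_of_isPGroup hA, inn_eq_autInducedBy] at hγ
  obtain ⟨s, hs, -, es⟩ := mem_autInducedBy_iff'.1 hγ
  have h1 : g x = s * x * s⁻¹ := by rw [← eγ x (hT.le hxT), es x (hT.le hxT)]
  have h2 := hκ.2 _ (conj_mem_of_mem_normalizer (hT.le_normalizer hs) hxT)
  rw [← e x hxT, eg x hxT, h1]
  simpa only [mul_assoc, mul_inv_cancel_left] using R.mul_mem (hc s hs x hxT) h2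

end FusionSystem
end Cfsg
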